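import Cfsg.Agent.H209.EPX.Defs
import Cfsg.Agent.H742.EX.EPi
import Cfsg.Agent.H839.EP.AltFrame

/-!
# S5745, rows `T = A_n` (helper784): the permutation frame, weighted `E_pi`

* `exists_frame` : `EPS H N e`, `k = 1`, `T ≅ A_n`, `n ≥ 7`: an injective `ρ : H →* S_n`, `A_n ≤ ρ(H)`, and the images of the
  two-point stabilisers are maximal subgroups of `ρ(H)` not containing `A_n`.
* `e_pi_w`, `dead_w` : `E_pi` with weights: every two-point stabiliser has at least `w r` elements of order `r` for some `r ∈ π`.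
-/

set_option autoImplicit false
set_option linter.unusedSectionVars false

namespace Cfsg.Agent.H784.EX

open Subgroup MulAction Cfsg.Agent.H284 Cfsg.Agent.H209.EPX Cfsg.Agent.H742.EX

section frame

open Equiv Equiv.Perm Cfsg.Agent.H839.EP

variable {G : Type*} [Group G] {H N : Subgroup G} {T : Type} [Group T] {e : N ≃* (Fin 1 → T)}

theorem exists_frame [Finite G] (h : EPS H N e) {n : ℕ} (hn : 7 ≤ n) (eT : T ≃* alternatingGroup (Fin n)) :
    ∃ ρ : H →* Perm (Fin n), Function.Injective ρ ∧ alternatingGroup (Fin n) ≤ ρ.range ∧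
      ∀ g ∉ H, MaxNot ρ.range (((H ⊓ cj g H).subgroupOf H).map ρ) := by
  obtain ⟨m, rfl⟩ : ∃ m, n = m + 2 := ⟨n - 2, by omega⟩
  have hN : NIn N H := h.toNIn
  let f : N ≃* alternatingGroup (Fin (m + 2)) := (e.trans (MulEquiv.funUnique (Fin 1) T)).trans eT
  obtain ⟨ψ, hψ⟩ := Cfsg.Agent.StandardComponent.AltAut.exists_autHom (m + 2) hn
  let res : H →* MulAut N :=
    { toFun := fun σ =>
        { toFun := fun x => ⟨(σ : G) * (x : G) * (σ : G)⁻¹, hN.nrm σ σ.2 x x.2⟩
          invFun := fun x => ⟨(σ : G)⁻¹ * (x : G) * (σ : G), by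
            have := hN.nrm (σ : G)⁻¹ (inv_mem σ.2) x x.2
            rwa [inv_inv] at this⟩
          left_inv := fun x => Subtype.ext (by
            show (σ : G)⁻¹ * ((σ : G) * (x : G) * (σ : G)⁻¹) * (σ : G) = x
            group)
          right_inv := fun x => Subtype.ext (by
            show (σ : G) * ((σ : G)⁻¹ * (x : G) * (σ : G)) * (σ : G)⁻¹ = x
            group)
          map_mul' := fun x y => Subtype.ext (by
            show (σ : G) * ((x : G) * (y : G)) * (σ : G)⁻¹ = ((σ : G) * (x : G) * (σ : G)⁻¹) * ((σ : G) * (y : G) * (σ : G)⁻¹)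
            group) }
      map_one' := by
        ext x
        show (1 : G) * (x : G) * (1 : G)⁻¹ = x
        group
      map_mul' := fun σ τ => by
        ext x
        show ((σ : G) * (τ : G)) * (x : G) * ((σ : G) * (τ : G))⁻¹ = (σ : G) * ((τ : G) * (x : G) * (τ : G)⁻¹) * (σ : G)⁻¹
        group }
  let ρ : H →* Perm (Fin (m + 2)) := ψ.comp ((MulAut.congr f).toMonoidHom.comp res)
  have hact : ∀ (σ : H) (x y : N), (y : G) = (σ : G) * x * (σ : G)⁻¹ →
      (f y : Perm (Fin (m + 2))) = ρ σ * f x * (ρ σ)⁻¹ := by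
    intro σ x y hy
    show _ = ψ (MulAut.congr f (res σ)) * f x * (ψ (MulAut.congr f (res σ)))⁻¹
    rw [← hψ]
    have h1 : MulAut.congr f (res σ) (f x) = f (res σ (f.symm (f x))) := rfl
    rw [h1, f.symm_apply_apply]
    have h2 : y = res σ x := Subtype.ext hy
    rw [h2]
  have hcon : ∀ (σ : H) (x : N), (σ : G) = x → ρ σ = f x := by
    intro σ x hσ
    apply Cfsg.Agent.StandardComponent.AltAut.conj_unique (m := m) (by omega)
    intro p
    have h1 := hact σ (f.symm p) (x * f.symm p * x⁻¹) (by rw [hσ]; rfl)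
    rw [f.apply_symm_apply] at h1
    refine h1.symm.trans ?_
    rw [map_mul, map_mul, map_inv, f.apply_symm_apply]
    rfl
  have hinj : Function.Injective ρ := by
    rw [injective_iff_map_eq_one]
    intro σ hσ
    have h1 : (σ : G) ∈ Subgroup.centralizer (N : Set G) := by
      rw [Subgroup.mem_centralizer_iff]
      intro x hx
      have h1 := hact σ ⟨x, hx⟩ ⟨(σ : G) * x * (σ : G)⁻¹, hN.nrm σ σ.2 x hx⟩ rfl
      rw [hσ, one_mul, inv_one, mul_one] at h1
      have h2 : (σ : G) * x * (σ : G)⁻¹ = x := Subtype.ext_iff.1 (f.injective (Subtype.ext h1))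
      rw [mul_inv_eq_iff_eq_mul] at h2
      exact h2.symm
    rw [h.cent, mem_bot] at h1
    exact Subtype.ext h1
  have halt : alternatingGroup (Fin (m + 2)) ≤ ρ.range := by
    intro p hp
    refine ⟨⟨((f.symm ⟨p, hp⟩ : N) : G), hN.le (f.symm ⟨p, hp⟩).2⟩, ?_⟩
    rw [hcon _ (f.symm ⟨p, hp⟩) rfl, f.apply_symm_apply]
  refine ⟨ρ, hinj, halt, fun g hg => ⟨?_, ?_, ?_⟩⟩
  · rintro _ ⟨σ, _, rfl⟩
    exact ⟨σ, rfl⟩
  · intro hle
    apply h.ne
    refine h.ep.F1 hN.le hN.nrm (x := g) hg ?_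
    intro y hy
    obtain ⟨σ, hσ, h1⟩ := hle (f ⟨y, hy⟩).2
    have h2 : ρ ⟨y, hN.le hy⟩ = f ⟨y, hy⟩ := hcon _ ⟨y, hy⟩ rfl
    have h3 : σ = ⟨y, hN.le hy⟩ := hinj (h1.trans h2.symm)
    rw [h3] at hσ
    exact (mem_subgroupOf.1 hσ).2
  · intro K hLK hKG
    have h1 : H ⊓ cj g H ≤ (K.comap ρ).map H.subtype := by
      intro x hx
      exact ⟨⟨x, hx.1⟩, hLK ⟨⟨x, hx.1⟩, mem_subgroupOf.2 hx, rfl⟩, rfl⟩
    have h2 : (K.comap ρ).map H.subtype ≤ H := by
      rintro _ ⟨y, _, rfl⟩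
      exact y.2
    rcases h.ep.two g hg _ h1 h2 with h3 | h3
    · left
      apply le_antisymm _ hLK
      intro k hk
      obtain ⟨σ, rfl⟩ := hKG hk
      have h4 : (σ : G) ∈ (K.comap ρ).map H.subtype := ⟨σ, hk, rfl⟩
      rw [h3] at h4
      exact ⟨σ, mem_subgroupOf.2 h4, rfl⟩
    · right
      apply le_antisymm hKG
      rintro _ ⟨σ, rfl⟩
      have h4 : (σ : G) ∈ (K.comap ρ).map H.subtype := by rw [h3]; exact σ.2
      obtain ⟨τ, hτ, h5⟩ := h4
      have h6 : τ = σ := Subtype.ext h5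
      rw [← h6]
      exact hτ

end frame

section count

variable {G : Type*} [Group G]

/-- **E_pi** with weights -/
theorem e_pi_w [Finite G] (H : Subgroup G) (π : Finset ℕ) (w : ℕ → ℕ) (hw : ∀ r ∈ π, 0 < w r)
    (hM : ∀ g ∉ H, ∃ r ∈ π, w r ≤ (el (H ⊓ cj g H : Subgroup G) r).card) :
    ((H.index : ℚ) - 1) ≤ ∑ r ∈ π, (1 / (w r : ℚ)) * ∑ x ∈ el H r, ((F H x : ℚ) - 1) := by
  classical
  have hfin : Finite (G ⧸ H) := inferInstance
  let _ : Fintype (G ⧸ H) := Fintype.ofFinite _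
  let o : G ⧸ H := QuotientGroup.mk 1
  have hst : ∀ (b : G ⧸ H), b ≠ o → 1 ≤ ∑ r ∈ π, (1 / (w r : ℚ)) *
      (((el H r).filter (fun x => x • b = b)).card : ℚ) := by
    intro b hb
    obtain ⟨g, rfl⟩ := QuotientGroup.mk_surjective b
    have hg : g ∉ H := by
      intro hg
      apply hb
      change (QuotientGroup.mk g : G ⧸ H) = QuotientGroup.mk 1
      rw [QuotientGroup.eq, mul_one]
      exact H.inv_mem hg
    obtain ⟨r, hr, h1⟩ := hM g hg
    have h2 : el (H ⊓ cj g H : Subgroup G) r ⊆ (el H r).filter (fun x => x • (QuotientGroup.mk g : G ⧸ H) = QuotientGroup.mk g) := by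
      intro x hx
      rw [mem_el] at hx
      rw [Finset.mem_filter, mem_el]
      refine ⟨⟨hx.1.1, hx.2⟩, ?_⟩
      have h3 := mem_cj.1 hx.1.2
      exact (mem_fixedBy).1 (fixedBy_iff.2 h3)
    have h3 : (w r : ℚ) ≤ (((el H r).filter (fun x => x • (QuotientGroup.mk g : G ⧸ H) = QuotientGroup.mk g)).card : ℚ) := by
      exact_mod_cast h1.trans (Finset.card_le_card h2)
    have hpos : ∀ s ∈ π, (0 : ℚ) < (w s : ℚ) := by
      intro s hs
      exact_mod_cast hw s hs
    refine le_trans ?_ (Finset.single_le_sum (fun s hs => ?_) hr)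
    · rw [one_div, ← div_eq_inv_mul, le_div_iff₀ (hpos r hr), one_mul]
      exact h3
    · exact mul_nonneg (one_div_nonneg.2 (hpos s hs).le) (Nat.cast_nonneg _)
  have hsum := Finset.sum_le_sum (s := Finset.univ.erase o) (f := fun _ => (1 : ℚ)) (fun b hb =>
    hst b (Finset.ne_of_mem_erase hb))
  rw [Finset.sum_const, Finset.card_erase_of_mem (Finset.mem_univ _), Finset.card_univ, ← Nat.card_eq_fintype_card,
    nsmul_eq_mul, mul_one, Finset.sum_comm] at hsum
  have hidx : Nat.card (G ⧸ H) = H.index := rfl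
  have hi1 : 1 ≤ H.index := Nat.one_le_iff_ne_zero.2 (Subgroup.index_ne_zero_of_finite)
  rw [hidx, Nat.cast_sub hi1, Nat.cast_one] at hsum
  refine hsum.trans (le_of_eq ?_)
  refine Finset.sum_congr rfl fun r _ => ?_
  rw [← Finset.mul_sum]
  congr 1
  have h1 : ∀ b : G ⧸ H, (((el H r).filter (fun x => x • b = b)).card : ℚ) =
      ∑ x ∈ el H r, (if x • b = b then (1 : ℚ) else 0) := by
    intro b
    rw [Finset.sum_boole]
  rw [Finset.sum_congr rfl (fun b _ => h1 b), Finset.sum_comm]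
  refine Finset.sum_congr rfl fun x hx => ?_
  rw [Finset.sum_boole, Finset.filter_erase]
  have hox : o ∈ Finset.univ.filter (fun b : G ⧸ H => x • b = b) := by
    rw [Finset.mem_filter]
    refine ⟨Finset.mem_univ _, ?_⟩
    change x • (QuotientGroup.mk 1 : G ⧸ H) = QuotientGroup.mk 1
    refine (mem_fixedBy).1 (fixedBy_iff.2 ?_)
    rw [inv_one, one_mul, mul_one]
    exact (mem_el.1 hx).1
  rw [Finset.card_erase_of_mem hox, Nat.cast_sub (Finset.card_pos.2 ⟨o, hox⟩), Nat.cast_one]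
  congr 1
  rw [F, Nat.card_eq_fintype_card, Fintype.card_subtype]
  rfl

/-- the weighted inequality, crude form, as a contradiction -/
theorem dead_w [Finite G] {H : Subgroup G} (hn : 11 ≤ H.index) (π : Finset ℕ) (w : ℕ → ℕ) (hw : ∀ r ∈ π, 0 < w r)
    (hM : ∀ g ∉ H, ∃ r ∈ π, w r ≤ (el (H ⊓ cj g H : Subgroup G) r).card) (N c : ℕ → ℕ)
    (hN : ∀ r ∈ π, (el H r).card ≤ N r) (hc0 : ∀ r ∈ π, 0 < c r)
    (hc : ∀ r ∈ π, ∀ x ∈ H, orderOf x = r → c r ≤ cG x)
    (hS : ∑ r ∈ π, ((N r : ℚ) ^ 2 / ((w r : ℚ) * c r)) ≤ 9 / 10) : False := by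
  classical
  have h1 := e_pi_w H π w hw hM
  have hpos : ∀ s ∈ π, (0 : ℚ) < (w s : ℚ) := by
    intro s hs
    exact_mod_cast hw s hs
  have key : ∑ r ∈ π, (1 / (w r : ℚ)) * ∑ x ∈ el H r, ((F H x : ℚ) - 1) ≤
      H.index * ∑ r ∈ π, ((N r : ℚ) ^ 2 / ((w r : ℚ) * c r)) := by
    rw [Finset.mul_sum]
    refine Finset.sum_le_sum fun r hr => ?_
    have hcp : (0 : ℚ) < c r := by exact_mod_cast hc0 r hr
    have h2 : ∀ x ∈ el H r, ((F H x : ℚ) - 1) ≤ H.index * ((N r : ℚ) / c r) := by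
      intro x hx
      obtain ⟨hx1, hx2⟩ := mem_el.1 hx
      have h3 : cH H x ≤ N r := by
        refine le_trans ?_ (hN r hr)
        have h5 : cH H x ≤ Nat.card (el H r) := by
          refine Nat.card_le_card_of_injective (fun y => ⟨y.1, mem_el.2 ⟨y.2.2, ?_⟩⟩) ?_
          · obtain ⟨d, hd⟩ := isConj_iff.1 y.2.1
            rw [← hd, ← hx2]
            exact (MulAut.conj d).orderOf_eq x
          · intro y z hyz
            exact Subtype.ext (congrArg (fun t : el H r => (t : G)) hyz)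
        rwa [Nat.card_eq_fintype_card, Fintype.card_coe] at h5
      have h4 := hc r hr x hx1 hx2
      have h6 : (cH H x / cG x : ℚ) ≤ (N r : ℚ) / c r := by gcongr
      rw [F_eq]
      have h7 : (H.index : ℚ) * (cH H x / cG x : ℚ) ≤ H.index * ((N r : ℚ) / c r) :=
        mul_le_mul_of_nonneg_left h6 (Nat.cast_nonneg _)
      linarith
    have h8 : ∑ x ∈ el H r, ((F H x : ℚ) - 1) ≤ (N r : ℚ) * (H.index * ((N r : ℚ) / c r)) := by
      refine (Finset.sum_le_sum h2).trans ?_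
      rw [Finset.sum_const, nsmul_eq_mul]
      refine mul_le_mul_of_nonneg_right ?_ (by positivity)
      exact_mod_cast hN r hr
    calc (1 / (w r : ℚ)) * ∑ x ∈ el H r, ((F H x : ℚ) - 1)
        ≤ (1 / (w r : ℚ)) * ((N r : ℚ) * (H.index * ((N r : ℚ) / c r))) :=
          mul_le_mul_of_nonneg_left h8 (one_div_nonneg.2 (hpos r hr).le)
      _ = _ := by
          have := hpos r hr
          field_simp
  have h2 : (11 : ℚ) ≤ H.index := by exact_mod_cast hn
  have h3 : (H.index : ℚ) * ∑ r ∈ π, ((N r : ℚ) ^ 2 / ((w r : ℚ) * c r)) ≤ H.index * (9 / 10) :=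
    mul_le_mul_of_nonneg_left hS (by linarith)
  linarith

end count

end Cfsg.Agent.H784.EX
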