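import Cfsg.Agent.H742.EX.EPi
import Cfsg.Agent.H168.EP.MaxAlt
import Cfsg.Agent.H168.EP.Perm11
import Cfsg.Agent.S0675
import Cfsg.Agent.S0547

/-!
# S5745, rows `T = A_11, A_12` (helper784): maximal subgroups of `A_n ≤ G ≤ S_n`

`L` a maximal subgroup of `G` not containing `A_n` (`MaxNot G L`).
* `five_of_orbit` : `n ≥ 9`, `L` intransitive: `5 ∣ |L|`;
* `five_eleven` : `n = 11`: `5 ∣ |L|`;
* `eight_twelve` : `n = 12`, `L` transitive: `L` has at least 8 elements of order 3.
-/

set_option autoImplicit false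
set_option linter.unusedSectionVars false

namespace Cfsg.Agent.H784.EX

open Equiv Equiv.Perm Subgroup MulAction Cfsg.Agent.H839.EP Cfsg.Agent.H168.EP Cfsg.Agent.H742.EX

section gen

variable {n : ℕ} {G L : Subgroup (Perm (Fin n))}

theorem mem_of_class (hG : alternatingGroup (Fin n) ≤ G) {r : Setoid (Fin n)} (hL : L = G ⊓ stabS r)
    {c : Perm (Fin n)} (hc : c ∈ alternatingGroup (Fin n)) (h : ∀ x, r (c x) x) : c ∈ L := by
  rw [hL]
  exact ⟨hG hc, fun x y => ⟨fun h1 => r.trans (r.symm (h x)) (r.trans h1 (h y)),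
    fun h1 => r.trans (h x) (r.trans h1 (r.symm (h y)))⟩⟩

theorem exists_five {s : Finset (Fin n)} (hs : 5 ≤ s.card) :
    ∃ c ∈ alternatingGroup (Fin n), orderOf c = 5 ∧ ∀ x, c x ≠ x → x ∈ s ∧ c x ∈ s := by
  obtain ⟨t, hts, ht⟩ := Finset.exists_subset_card_eq hs
  have hl : t.toList.length = 5 := by rw [Finset.length_toList, ht]
  have hnd : t.toList.Nodup := t.nodup_toList
  have hcyc : (t.toList.formPerm).IsCycle := List.isCycle_formPerm hnd (by omega)
  have hsup : (t.toList.formPerm).support = t := by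
    rw [List.support_formPerm_of_nodup _ hnd (by
      intro x hx
      rw [hx] at hl
      simp at hl)]
    exact Finset.toList_toFinset t
  refine ⟨t.toList.formPerm, ?_, ?_, fun x hx => ?_⟩
  · rw [mem_alternatingGroup, hcyc.sign, hsup, ht]
    decide
  · rw [hcyc.orderOf, hsup, ht]
  · have h1 : x ∈ (t.toList.formPerm).support := mem_support.2 hx
    have h2 : t.toList.formPerm x ∈ (t.toList.formPerm).support := apply_mem_support.2 h1
    rw [hsup] at h1 h2
    exact ⟨hts h1, hts h2⟩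

/-- an intransitive maximal subgroup -/
theorem five_of_orbit (hn : 9 ≤ n) (hG : alternatingGroup (Fin n) ≤ G) (hL : MaxNot G L)
    (hnt : ¬ IsPretransitive L (Fin n)) : 5 ∣ Nat.card L := by
  classical
  obtain ⟨a, b, hab⟩ : ∃ a b : Fin n, ∀ g ∈ L, g a ≠ b := by
    by_contra hcon
    push Not at hcon
    apply hnt
    constructor
    intro x y
    obtain ⟨g, hg, hgxy⟩ := hcon x y
    exact ⟨⟨g, hg⟩, hgxy⟩
  let O : Finset (Fin n) := Finset.univ.filter (fun x => ∃ g ∈ L, g a = x)
  have hO : ∀ x, x ∈ O ↔ ∃ g ∈ L, g a = x := fun x => by simp [O]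
  have hinv : ∀ g ∈ L, ∀ x, g x ∈ O ↔ x ∈ O := by
    intro g hg x
    rw [hO, hO]
    constructor
    · rintro ⟨k, hk, h1⟩
      refine ⟨g⁻¹ * k, L.mul_mem (L.inv_mem hg) hk, ?_⟩
      rw [Perm.mul_apply, h1]
      exact g.symm_apply_apply x
    · rintro ⟨k, hk, rfl⟩
      exact ⟨g * k, L.mul_mem hg hk, rfl⟩
  have haO : a ∈ O := (hO a).2 ⟨1, L.one_mem, rfl⟩
  have hbO : b ∉ O := by
    rw [hO]
    rintro ⟨g, hg, h1⟩
    exact hab g hg h1
  let r : Setoid (Fin n) := ⟨fun x y => (x ∈ O ↔ y ∈ O), fun _ => Iff.rfl, fun h => h.symm, fun h h' => h.trans h'⟩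
  have hr : ∀ x y, r x y ↔ (x ∈ O ↔ y ∈ O) := fun _ _ => Iff.rfl
  have hLr : L ≤ stabS r := le_stabS (fun g hg x y hxy => by
    rw [hr] at hxy ⊢
    rw [hinv g hg, hinv g hg]
    exact hxy)
  -- a class with at least five points
  obtain ⟨s, hs5, hs⟩ : ∃ s : Finset (Fin n), 5 ≤ s.card ∧ ∀ x ∈ s, ∀ y ∈ s, r x y := by
    have h1 : O.card + Oᶜ.card = n := by
      rw [Finset.card_add_card_compl, Fintype.card_fin]
    rcases Nat.lt_or_ge O.card 5 with h2 | h2
    · refine ⟨Oᶜ, by omega, fun x hx y hy => ?_⟩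
      rw [Finset.mem_compl] at hx hy
      exact (hr x y).2 ⟨fun h => absurd h hx, fun h => absurd h hy⟩
    · exact ⟨O, h2, fun x hx y hy => (hr x y).2 ⟨fun _ => hy, fun _ => hx⟩⟩
  have hna : ¬ alternatingGroup (Fin n) ≤ stabS r := by
    intro hle
    rcases eq_bot_or_top_of_alt (by omega) hle with h1 | h1
    · obtain ⟨x, hx, y, hy, hne⟩ := Finset.one_lt_card.1 (show 1 < s.card by omega)
      exact hne (h1 x y (hs x hx y hy))
    · exact hbO ((h1 a b).1 haO)
  have hLe := hL.eq_inf hG hLr hna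
  obtain ⟨c, hc, hc5, hcs⟩ := exists_five hs5
  have hcL : c ∈ L := mem_of_class hG hLe hc (fun x => by
    by_cases hx : c x = x
    · rw [hx]
    · exact hs _ (hcs x hx).2 _ (hcs x hx).1)
  have h1 : orderOf (⟨c, hcL⟩ : L) = 5 := by rw [Subgroup.orderOf_mk, hc5]
  rw [← h1]
  exact orderOf_dvd_natCard _

end gen

theorem mem_norm_of_conj_gen {P : Type*} [Group P] [Finite P] {z g : P} (h : g * z * g⁻¹ ∈ zpowers z) :
    g ∈ normalizer (zpowers z : Set P) := by
  refine mem_normalizer_fintype (fun n hn => ?_)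
  obtain ⟨i, rfl⟩ := mem_zpowers_iff.1 hn
  rw [← conj_zpow]
  exact zpow_mem h i

section eleven

variable {G L : Subgroup (Perm (Fin 11))}

theorem card_two_embedding : Nat.card (Fin 2 ↪ Fin 11) = 110 := by
  rw [Nat.card_eq_fintype_card, Fintype.card_embedding_eq]
  decide

theorem dvd_of_transitive {X : Type*} [Finite X] {P : Type*} [Group P] [Finite P] [MulAction P X] [Nonempty X]
    (ht : IsPretransitive P X) : Nat.card X ∣ Nat.card P := by
  obtain ⟨x⟩ := ‹Nonempty X›
  rw [← index_stabilizer_of_transitive P x]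
  exact Subgroup.index_dvd_card _

theorem five_dvd_orderOf {P : Type*} [Group P] {z u : P} (hz : orderOf z = 11) (hu : Odd (orderOf u)) {k : ℕ}
    (hk : u * z * u⁻¹ = z ^ k) (hne : u * z * u⁻¹ ≠ z) : 5 ∣ orderOf u := by
  have hpow : ∀ j : ℕ, u ^ j * z * (u ^ j)⁻¹ = z ^ k ^ j := by
    intro j
    induction j with
    | zero => simp
    | succ j ih =>
      have e : u ^ (j + 1) * z * (u ^ (j + 1))⁻¹ = u * (u ^ j * z * (u ^ j)⁻¹) * u⁻¹ := by
        rw [pow_succ']
        group
      rw [e, ih, ← conj_pow, hk, ← pow_mul, pow_succ']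
  have h1 := hpow (orderOf u)
  rw [pow_orderOf_eq_one, one_mul, inv_one, mul_one] at h1
  have h2 : z ^ 1 = z ^ k ^ orderOf u := by rw [pow_one]; exact h1
  have h3 : 1 ≡ k ^ orderOf u [MOD 11] := by rw [← hz]; exact pow_eq_pow_iff_modEq.1 h2
  have h4 : (k : ZMod 11) ^ orderOf u = 1 := by
    have := (ZMod.natCast_eq_natCast_iff _ _ _).2 h3
    push_cast at this
    exact this.symm
  have h5 : (k : ZMod 11) ≠ 1 := by
    intro h
    apply hne
    rw [hk]
    have h6 : k ≡ 1 [MOD 11] := (ZMod.natCast_eq_natCast_iff _ _ _).1 (by push_cast; exact h)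
    rw [← hz] at h6
    have := pow_eq_pow_iff_modEq.2 h6
    rwa [pow_one] at this
  have h6 : ∀ a : ZMod 11, a = 0 ∨ a ^ 10 = 1 := by decide
  have h7 : (k : ZMod 11) ^ 10 = 1 := by
    rcases h6 (k : ZMod 11) with h | h
    · rw [h, zero_pow (orderOf u |> fun _ => by
        intro h0
        rw [h0] at hu
        exact absurd hu (by decide))] at h4
      exact absurd h4 (by decide)
    · exact h
  have h8 : orderOf (k : ZMod 11) ∣ 10 := orderOf_dvd_of_pow_eq_one h7
  have h9 : orderOf (k : ZMod 11) ∣ orderOf u := orderOf_dvd_of_pow_eq_one h4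
  have h10 : orderOf (k : ZMod 11) ≠ 1 := fun h => h5 (orderOf_eq_one_iff.1 h)
  have h11 : Odd (orderOf (k : ZMod 11)) := Odd.of_dvd_nat hu h9
  have h12 : orderOf (k : ZMod 11) = 5 := by
    have h13 : orderOf (k : ZMod 11) ≤ 10 := Nat.le_of_dvd (by norm_num) h8
    generalize orderOf (k : ZMod 11) = t at *
    interval_cases t <;> first | rfl | (exfalso; revert h8 h10 h11; decide)
  rwa [h12] at h9

theorem exists_minNormal {P : Type*} [Group P] [Finite P] [Nontrivial P] :
    ∃ M : Subgroup P, M.Normal ∧ M ≠ ⊥ ∧ ∀ K : Subgroup P, K.Normal → K ≤ M → K = ⊥ ∨ K = M := by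
  have hfin : Finite (Subgroup P) := inferInstance
  obtain ⟨M, ⟨hM1, hM2⟩, hmin⟩ := (Set.toFinite {M : Subgroup P | M.Normal ∧ M ≠ ⊥}).exists_minimal
    ⟨⊤, inferInstance, top_ne_bot⟩
  refine ⟨M, hM1, hM2, fun K hK hKM => ?_⟩
  by_cases h : K = ⊥
  · exact Or.inl h
  · exact Or.inr (le_antisymm hKM (hmin ⟨hK, h⟩ hKM))

/-- **`n = 11`** -/
theorem five_eleven (hG : alternatingGroup (Fin 11) ≤ G) (hL : MaxNot G L) : 5 ∣ Nat.card L := by
  classical
  by_cases ht : IsPretransitive L (Fin 11)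
  swap
  · exact five_of_orbit (by norm_num) hG hL ht
  have h11 : 11 ∣ Nat.card L := by
    have := dvd_of_transitive (X := Fin 11) ht
    simpa using this
  rcases Cfsg.Agent.S0675.result (α := Fin 11) (by simp; norm_num) L with hs | h2
  · have hprim : IsPreprimitive L (Fin 11) := IsPreprimitive.of_prime_card (by simp; norm_num)
    have hnt : Nontrivial L := by
      rw [← Finite.one_lt_card_iff_nontrivial]
      exact lt_of_lt_of_le (by norm_num) (Nat.le_of_dvd Nat.card_pos h11)
    obtain ⟨M, hM1, hM2, hM3⟩ := exists_minNormal (P := L)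
    obtain ⟨-, -, p, d, -, -, h3, h4⟩ := Cfsg.Agent.S0547.result (Ω := Fin 11) hprim M hM2 hM3
    have hM11 : Nat.card M = 11 := by rw [h4, ← h3]; simp
    have hf : Fact (Nat.Prime 11) := ⟨by norm_num⟩
    obtain ⟨z, hz⟩ := exists_prime_orderOf_dvd_card' (G := M) 11 (by rw [hM11])
    have hz' : orderOf ((z : L) : Perm (Fin 11)) = 11 := by
      rw [Subgroup.orderOf_coe, Subgroup.orderOf_coe, hz]
    have hgen : ∀ m : M, ((m : L) : Perm (Fin 11)) ∈ zpowers ((z : L) : Perm (Fin 11)) := by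
      intro m
      have h5 : m ∈ zpowers z := by
        have : zpowers z = ⊤ := Subgroup.eq_top_of_card_eq _ (by rw [Nat.card_zpowers, hz, hM11])
        rw [this]
        exact mem_top _
      obtain ⟨i, hi⟩ := mem_zpowers_iff.1 h5
      refine mem_zpowers_iff.2 ⟨i, ?_⟩
      rw [← hi]
      push_cast
      rfl
    have hnorm : L ≤ normalizer (zpowers ((z : L) : Perm (Fin 11)) : Set (Perm (Fin 11))) := by
      intro g hg
      apply mem_norm_of_conj_gen
      · exact hgen ⟨⟨g, hg⟩ * (z : L) * (⟨g, hg⟩ : L)⁻¹, hM1.conj_mem _ z.2 _⟩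
    have hzalt : ((z : L) : Perm (Fin 11)) ∈ alternatingGroup (Fin 11) := by
      rw [mem_alternatingGroup]
      exact odd_sign (by rw [hz']; decide)
    have hna : ¬ alternatingGroup (Fin 11) ≤ normalizer (zpowers ((z : L) : Perm (Fin 11)) : Set (Perm (Fin 11))) := by
      intro hle
      have hsimp : IsSimpleGroup (alternatingGroup (Fin 11)) := alternatingGroup.isSimpleGroup (by simp)
      have hnor : ((zpowers ((z : L) : Perm (Fin 11))).subgroupOf (alternatingGroup (Fin 11))).Normal := by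
        constructor
        intro x hx g
        rw [mem_subgroupOf] at hx ⊢
        exact (mem_normalizer_iff.1 (hle g.2) _).1 hx
      have hcard : Nat.card ((zpowers ((z : L) : Perm (Fin 11))).subgroupOf (alternatingGroup (Fin 11))) = 11 := by
        rw [Nat.card_congr (Subgroup.subgroupOfEquivOfLe (by
          rw [zpowers_le]
          exact hzalt)).toEquiv, Nat.card_zpowers, hz']
      rcases hnor.eq_bot_or_eq_top with h5 | h5
      · rw [h5, Subgroup.card_bot] at hcard
        norm_num at hcard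
      · rw [h5, Subgroup.card_top, nat_card_alternatingGroup] at hcard
        simp [Nat.factorial] at hcard
    have hLe := hL.eq_inf hG hnorm hna
    obtain ⟨u, hu1, ⟨k, hk⟩, hu3⟩ := exists_normaliser (m := 11) (by norm_num) hz'
    have huL : u ∈ L := by
      rw [hLe]
      refine ⟨hG (mem_alternatingGroup.2 (odd_sign hu1)), mem_norm_of_conj_gen ?_⟩
      rw [hk]
      exact pow_mem (mem_zpowers _) _
    have h5 := five_dvd_orderOf hz' hu1 hk hu3
    refine h5.trans ?_
    have h6 : orderOf (⟨u, huL⟩ : L) = orderOf u := Subgroup.orderOf_mk _ _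
    rw [← h6]
    exact orderOf_dvd_natCard _
  · have h3 : IsPretransitive L (Fin 2 ↪ Fin 11) := h2
    have hne : Nonempty (Fin 2 ↪ Fin 11) := ⟨Fin.castLEEmb (by norm_num)⟩
    have h4 := dvd_of_transitive (X := Fin 2 ↪ Fin 11) h3
    rw [card_two_embedding] at h4
    exact (by norm_num : 5 ∣ 110).trans h4

end eleven

end Cfsg.Agent.H784.EX
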