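import Cfsg.Agent.H742.EX.EPi
import Cfsg.Agent.H168.EP.MaxAlt
import Cfsg.Agent.H168.EP.Perm11
import Cfsg.Agent.H839.EP.AltFrame
import Mathlib.GroupTheory.Perm.Centralizer

/-!
# S5745, row `T = A_12` (helper784): elements of order 3

* `el_three` : `3 ∣ |L|`: `L` has 2 or at least 8 elements of order 3;
* `eight_twelve` : `L` maximal in `A_12 ≤ G ≤ S_12`, not containing `A_12`, transitive: `L` has at least 8 elements of order 3;
* `card_three_twelve` : `S_12` has at most 776600 elements of order 3.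
-/

set_option autoImplicit false
set_option linter.unusedSectionVars false

namespace Cfsg.Agent.H784.EX

open Equiv Equiv.Perm Subgroup MulAction Cfsg.Agent.H839.EP Cfsg.Agent.H168.EP Cfsg.Agent.H742.EX

section frob

variable {P : Type*} [Group P]

/-- the rotation of the pairs `(x, y)`, thought of as triples `(x, y, (x y)⁻¹)` -/
def rot3 (P : Type*) [Group P] : Function.End (P × P) := fun a => (a.2, (a.1 * a.2)⁻¹)

theorem rot3_pow : (rot3 P) ^ 3 ^ 1 = 1 := by
  funext a
  show rot3 P (rot3 P (rot3 P a)) = a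
  simp only [rot3]
  ext
  · show ((a.2 * (a.1 * a.2)⁻¹)⁻¹ : P) = a.1
    group
  · show (((a.1 * a.2)⁻¹ * (a.2 * (a.1 * a.2)⁻¹)⁻¹)⁻¹ : P) = a.2
    group

theorem three_dvd [Finite P] (h : 3 ∣ Nat.card P) : 3 ∣ Nat.card {x : P // x ^ 3 = 1} := by
  classical
  have := Fintype.ofFinite P
  have hp : Fact (Nat.Prime 3) := ⟨by norm_num⟩
  have h1 := Equiv.Perm.card_fixedPoints_modEq (f := rot3 P) (p := 3) (n := 1) rot3_pow
  have h2 : 3 ∣ Fintype.card (P × P) := by
    rw [Fintype.card_prod, ← Nat.card_eq_fintype_card]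
    exact h.mul_right _
  simp only [← Nat.card_eq_fintype_card] at h1 h2
  have h3 : 3 ∣ Nat.card (Function.fixedPoints (rot3 P)) := (Nat.modEq_zero_iff_dvd).1
    (h1.symm.trans (Nat.modEq_zero_iff_dvd.2 h2))
  refine h3.trans (dvd_of_eq (Nat.card_congr ?_))
  refine ⟨fun a => ⟨a.1.1, ?_⟩, fun x => ⟨(x.1, x.1), ?_⟩, ?_, ?_⟩
  · have h4 : rot3 P a.1 = a.1 := a.2
    have h5 : a.1.2 = a.1.1 := congrArg Prod.fst h4
    have h6 : (a.1.1 * a.1.2)⁻¹ = a.1.2 := congrArg Prod.snd h4
    rw [h5] at h6
    rw [pow_succ, pow_two]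
    nth_rewrite 3 [← h6]
    exact mul_inv_cancel _
  · show rot3 P (x.1, x.1) = (x.1, x.1)
    simp only [rot3]
    have h4 : x.1 * x.1 * x.1 = 1 := by rw [← pow_two, ← pow_succ, x.2]
    rw [inv_eq_of_mul_eq_one_right h4]
  · rintro ⟨⟨a, b⟩, hab⟩
    have h4 : rot3 P (a, b) = (a, b) := hab
    have h5 : b = a := congrArg Prod.fst h4
    subst h5
    rfl
  · rintro ⟨x, hx⟩
    rfl

theorem two_mod [Finite P] : Nat.card {x : P // x ^ 3 = 1} % 2 = 1 := by
  classical
  have := Fintype.ofFinite P
  have hp : Fact (Nat.Prime 2) := ⟨by norm_num⟩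
  let f : Function.End {x : P // x ^ 3 = 1} := fun x => ⟨x.1⁻¹, by rw [inv_pow, x.2, inv_one]⟩
  have hf : f ^ 2 ^ 1 = 1 := by
    funext x
    show f (f x) = x
    exact Subtype.ext (inv_inv _)
  have h1 := Equiv.Perm.card_fixedPoints_modEq (f := f) (p := 2) (n := 1) hf
  have h2 : Fintype.card (Function.fixedPoints f) = 1 := by
    rw [Fintype.card_eq_one_iff]
    refine ⟨⟨⟨1, one_pow 3⟩, ?_⟩, ?_⟩
    · show f ⟨1, _⟩ = ⟨1, _⟩
      exact Subtype.ext inv_one
    · rintro ⟨⟨x, hx⟩, hxf⟩
      have h3 : x⁻¹ = x := congrArg Subtype.val hxf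
      have h4 : x = 1 := by
        have h5 : x * x = 1 := by
          nth_rewrite 1 [← h3]
          exact inv_mul_cancel _
        rw [pow_succ, pow_two, h5, one_mul] at hx
        exact hx
      subst h4
      rfl
  rw [h2] at h1
  rw [Nat.card_eq_fintype_card]
  exact h1

theorem card_cube [Finite P] (L : Subgroup P) : Nat.card {x : L // x ^ 3 = 1} = (el L 3).card + 1 := by
  classical
  have h1 : (1 : P) ∉ el L 3 := by
    rw [mem_el]
    rintro ⟨-, h⟩
    rw [orderOf_one] at h
    norm_num at h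
  rw [← Finset.card_insert_of_notMem h1, ← Fintype.card_coe, ← Nat.card_eq_fintype_card]
  have hp : Fact (Nat.Prime 3) := ⟨by norm_num⟩
  refine Nat.card_congr ⟨fun x => ⟨x.1.1, ?_⟩, fun x => ⟨⟨x.1, ?_⟩, ?_⟩, fun _ => rfl, fun _ => rfl⟩
  · rw [Finset.mem_insert, mem_el]
    by_cases h : (x.1 : P) = 1
    · exact Or.inl h
    · exact Or.inr ⟨x.1.2, orderOf_eq_prime (by have := congrArg Subtype.val x.2; simpa using this) h⟩
  · rcases Finset.mem_insert.1 x.2 with h | h
    · rw [h]
      exact L.one_mem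
    · exact (mem_el.1 h).1
  · rcases Finset.mem_insert.1 x.2 with h | h
    · apply Subtype.ext
      show (x.1 : P) ^ 3 = 1
      rw [h, one_pow]
    · apply Subtype.ext
      show (x.1 : P) ^ 3 = 1
      exact orderOf_dvd_iff_pow_eq_one.1 (dvd_of_eq (mem_el.1 h).2)

theorem el_three [Finite P] {L : Subgroup P} (h : 3 ∣ Nat.card L) : (el L 3).card = 2 ∨ 8 ≤ (el L 3).card := by
  have h1 := three_dvd h
  have h2 := two_mod (P := L)
  rw [card_cube] at h1 h2
  omega

end frob

section twelve

theorem inv_app {α : Type*} (g : Perm α) (x : α) : g⁻¹ (g x) = x := g.symm_apply_apply x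

variable {G L : Subgroup (Perm (Fin 12))}

theorem eight_twelve (hG : alternatingGroup (Fin 12) ≤ G) (hL : MaxNot G L) (ht : IsPretransitive L (Fin 12)) :
    8 ≤ (el L 3).card := by
  classical
  have h3 : 3 ∣ Nat.card L := by
    have h1 : Nat.card (Fin 12) ∣ Nat.card L := by
      rw [← index_stabilizer_of_transitive L (0 : Fin 12)]
      exact Subgroup.index_dvd_card _
    rw [Nat.card_eq_fintype_card, Fintype.card_fin] at h1
    exact (by norm_num : 3 ∣ 12).trans h1
  rcases el_three h3 with h2 | h2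
  swap
  · exact h2
  exfalso
  obtain ⟨z, hz⟩ := Finset.card_pos.1 (by rw [h2]; norm_num : 0 < (el L 3).card)
  obtain ⟨hzL, hz3⟩ := mem_el.1 hz
  have hzz : z⁻¹ ≠ z := by
    intro h
    have h4 : z ^ 2 = 1 := by
      rw [pow_two]
      nth_rewrite 1 [← h]
      exact inv_mul_cancel z
    have h5 := orderOf_dvd_of_pow_eq_one h4
    rw [hz3] at h5
    norm_num at h5
  have hzi : z⁻¹ ∈ el L 3 := mem_el.2 ⟨L.inv_mem hzL, by rw [orderOf_inv, hz3]⟩
  have hall : ∀ y ∈ el L 3, y = z ∨ y = z⁻¹ := by
    intro y hy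
    have h4 : ({z, z⁻¹} : Finset (Perm (Fin 12))) ⊆ el L 3 := by
      intro t ht
      rw [Finset.mem_insert, Finset.mem_singleton] at ht
      rcases ht with rfl | rfl
      · exact hz
      · exact hzi
    have h5 := Finset.eq_of_subset_of_card_le h4 (by rw [h2, Finset.card_pair hzz.symm])
    rw [← h5, Finset.mem_insert, Finset.mem_singleton] at hy
    exact hy
  have hconj : ∀ g ∈ L, g * z * g⁻¹ = z ∨ g * z * g⁻¹ = z⁻¹ := by
    intro g hg
    refine hall _ (mem_el.2 ⟨L.mul_mem (L.mul_mem hg hzL) (L.inv_mem hg), ?_⟩)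
    rw [← hz3]
    exact (MulAut.conj g).orderOf_eq z
  -- `z` is fixed point free
  have hfix : ∀ x, z x ≠ x := by
    by_contra hcon
    push Not at hcon
    obtain ⟨x, hx⟩ := hcon
    have h4 : z = 1 := by
      ext y
      obtain ⟨⟨g, hg⟩, hgy⟩ := ht.exists_smul_eq x y
      have hgy' : g x = y := hgy
      have h5 : z⁻¹ x = x := by rw [Perm.inv_eq_iff_eq, hx]
      have h6 : (g * z * g⁻¹) y = y := by
        rw [Perm.mul_apply, Perm.mul_apply, ← hgy', inv_app, hx]
      have h7 : z y = y := by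
        rcases hconj g hg with h | h
        · rw [h] at h6
          exact h6
        · rw [h] at h6
          rw [Perm.inv_eq_iff_eq] at h6
          exact h6.symm
      rw [h7]
      rfl
    rw [h4, orderOf_one] at hz3
    norm_num at hz3
  let r : Setoid (Fin 12) := ⟨z.SameCycle, ⟨fun x => SameCycle.refl z x, fun h => h.symm, fun h h' => h.trans h'⟩⟩
  have hr : ∀ x y, r x y ↔ z.SameCycle x y := fun _ _ => Iff.rfl
  have hLr : L ≤ stabS r := le_stabS (fun g hg x y hxy => by
    rw [hr] at hxy ⊢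
    obtain ⟨i, hi⟩ := hxy
    have h4 : (g * z * g⁻¹).SameCycle (g x) (g y) := by
      refine ⟨i, ?_⟩
      rw [conj_zpow, Perm.mul_apply, Perm.mul_apply, inv_app, hi]
    rcases hconj g hg with h | h
    · rw [h] at h4
      exact h4
    · rw [h, sameCycle_inv] at h4
      exact h4)
  -- a cycle of `z`
  let c : Perm (Fin 12) := z.cycleOf 0
  have hcyc : c.IsCycle := isCycle_cycleOf z (hfix 0)
  have hc3 : orderOf c = 3 := by
    have h4 : orderOf c ∣ orderOf z := orderOf_cycleOf_dvd_orderOf z 0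
    rw [hz3] at h4
    rcases (Nat.dvd_prime (by norm_num)).1 h4 with h5 | h5
    · exact absurd (orderOf_eq_one_iff.1 h5) hcyc.ne_one
    · exact h5
  have hcard : c.support.card = 3 := by rw [← hcyc.orderOf, hc3]
  obtain ⟨y, hy⟩ : ∃ y, y ∉ c.support := by
    by_contra hcon
    push Not at hcon
    have h4 : c.support = Finset.univ := Finset.eq_univ_iff_forall.2 hcon
    rw [h4, Finset.card_univ, Fintype.card_fin] at hcard
    norm_num at hcard
  have hcy : c y = y := notMem_support.1 hy
  have hna : ¬ alternatingGroup (Fin 12) ≤ stabS r := by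
    intro hle
    rcases eq_bot_or_top_of_alt (by omega) hle with h1 | h1
    · exact hfix 0 (h1 (z 0) 0 (((hr _ _).2 (SameCycle.refl z 0).apply_left)))
    · have h4 : z.SameCycle 0 y := (hr _ _).1 (h1 0 y)
      have h5 : c y = z y := h4.cycleOf_apply
      exact hfix y (h5.symm.trans hcy)
  have hLe := hL.eq_inf hG hLr hna
  have hcL : c ∈ L := by
    rw [hLe]
    refine ⟨hG (mem_alternatingGroup.2 (odd_sign (by rw [hc3]; decide))), ?_⟩
    have h4 : ∀ x, r (c x) x := by
      intro x
      rw [hr]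
      by_cases h5 : z.SameCycle 0 x
      · have h6 : c x = z x := h5.cycleOf_apply
        rw [h6]
        exact (SameCycle.refl z x).apply_left
      · have h6 : c x = x := cycleOf_apply_of_not_sameCycle h5
        rw [h6]
    exact fun x y => ⟨fun h1 => r.trans (r.symm (h4 x)) (r.trans h1 (h4 y)),
      fun h1 => r.trans (h4 x) (r.trans h1 (r.symm (h4 y)))⟩
  rcases hall c (mem_el.2 ⟨hcL, hc3⟩) with h | h
  · rw [h] at hcy
    exact hfix y hcy
  · rw [h, Perm.inv_eq_iff_eq] at hcy
    exact hfix y hcy.symm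

theorem card_three_twelve (G : Subgroup (Perm (Fin 12))) : (el G 3).card ≤ 776600 := by
  classical
  have hsub : el G 3 ⊆ (Finset.univ.filter fun g : Perm (Fin 12) => g.cycleType = Multiset.replicate 1 3) ∪
      ((Finset.univ.filter fun g : Perm (Fin 12) => g.cycleType = Multiset.replicate 2 3) ∪
      ((Finset.univ.filter fun g : Perm (Fin 12) => g.cycleType = Multiset.replicate 3 3) ∪
      (Finset.univ.filter fun g : Perm (Fin 12) => g.cycleType = Multiset.replicate 4 3))) := by
    intro g hg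
    obtain ⟨-, h3⟩ := mem_el.1 hg
    obtain ⟨k, hk⟩ := cycleType_prime_order (σ := g) (by rw [h3]; norm_num)
    rw [h3] at hk
    have h4 : g.cycleType.sum ≤ 12 := by
      have := sum_cycleType_le g
      simpa using this
    rw [hk, Multiset.sum_replicate, smul_eq_mul] at h4
    have h5 : k + 1 ≤ 4 := by omega
    simp only [Finset.mem_union, Finset.mem_filter, Finset.mem_univ, true_and]
    rw [hk]
    have h6 : k ≤ 3 := by omega
    interval_cases k <;> simp
  refine (Finset.card_le_card hsub).trans ?_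
  refine (Finset.card_union_le _ _).trans ?_
  refine (Nat.add_le_add_left (Finset.card_union_le _ _) _).trans ?_
  refine (Nat.add_le_add_left (Nat.add_le_add_left (Finset.card_union_le _ _) _) _).trans ?_
  have hc : ∀ k, 1 ≤ k → k ≤ 4 → (Finset.univ.filter fun g : Perm (Fin 12) => g.cycleType = Multiset.replicate k 3).card =
      Nat.factorial 12 / (Nat.factorial (12 - 3 * k) * 3 ^ k * Nat.factorial k) := by
    intro k h1 h4
    rw [card_of_cycleType, if_pos]
    · rw [Multiset.sum_replicate, smul_eq_mul, Multiset.prod_replicate, Fintype.card_fin]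
      have h5 : (Multiset.replicate k 3).toFinset = {3} := by
        rw [Multiset.toFinset_replicate, if_neg (by omega)]
      rw [h5, Finset.prod_singleton, Multiset.count_replicate_self, mul_comm k 3]
    · refine ⟨?_, ?_⟩
      · rw [Multiset.sum_replicate, smul_eq_mul, Fintype.card_fin]
        omega
      · intro a ha
        rw [Multiset.eq_of_mem_replicate ha]
        norm_num
  rw [hc 1 (by norm_num) (by norm_num), hc 2 (by norm_num) (by norm_num), hc 3 (by norm_num) (by norm_num),
    hc 4 (by norm_num) (by norm_num)]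
  decide

end twelve

end Cfsg.Agent.H784.EX
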