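import Cfsg.Agent.H784.EX.AltFr
import Cfsg.Agent.H784.EX.AltMax
import Cfsg.Agent.H784.EX.AltThree

/-!
# S5745, rows `T = A_11, A_12` (helper784): the rows with class bounds as hypotheses

* `row_eleven` : `EPS H N e`, `k = 1`, `T ≅ A_11`, `|x^G| ≥ c₅` for `|x| = 5`, `c₅ ≥ 182015200000`: False;
* `row_twelve` : `EPS H N e`, `k = 1`, `T ≅ A_12`, `|x^G| ≥ c₃, c₅` for `|x| = 3, 5`, `75388445000/c₃ + 5781677958144/c₅ ≤ 9/10`:
  False.
-/

set_option autoImplicit false
set_option linter.unusedSectionVars false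

namespace Cfsg.Agent.H784.EX

open Equiv Equiv.Perm Subgroup MulAction Cfsg.Agent.H284 Cfsg.Agent.H209.EPX Cfsg.Agent.H742.EX Cfsg.Agent.H839.EP

section transfer

variable {G : Type*} [Group G] {H : Subgroup G} {P : Type*} [Group P]

open Classical in
/-- the map on the whole group -/
noncomputable def ext' (ρ : H →* P) (x : G) : P := if h : x ∈ H then ρ ⟨x, h⟩ else 1

theorem ext'_mem (ρ : H →* P) {x : G} (h : x ∈ H) : ext' ρ x = ρ ⟨x, h⟩ := by
  rw [ext', dif_pos h]

theorem orderOf_ext' {ρ : H →* P} (hρ : Function.Injective ρ) {x : G} (h : x ∈ H) : orderOf (ext' ρ x) = orderOf x := by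
  rw [ext'_mem ρ h, orderOf_injective ρ hρ, Subgroup.orderOf_mk]

theorem el_le_range [Finite G] [Finite P] {ρ : H →* P} (hρ : Function.Injective ρ) (r : ℕ) :
    (el H r).card ≤ (el ρ.range r).card := by
  classical
  refine Finset.card_le_card_of_injOn (ext' ρ) ?_ ?_
  · intro x hx
    rw [Finset.mem_coe, mem_el] at hx ⊢
    exact ⟨by rw [ext'_mem ρ hx.1]; exact ⟨_, rfl⟩, by rw [orderOf_ext' hρ hx.1, hx.2]⟩
  · intro x hx y hy hxy
    rw [Finset.mem_coe, mem_el] at hx hy
    rw [ext'_mem ρ hx.1, ext'_mem ρ hy.1] at hxy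
    exact congrArg Subtype.val (hρ hxy)

theorem el_map_le [Finite G] [Finite P] {ρ : H →* P} (hρ : Function.Injective ρ) {K : Subgroup G} (r : ℕ) :
    (el ((K.subgroupOf H).map ρ) r).card ≤ (el K r).card := by
  classical
  have h1 : el ((K.subgroupOf H).map ρ) r ⊆ (el K r).image (ext' ρ) := by
    intro y hy
    obtain ⟨⟨x, hx, rfl⟩, h2⟩ := mem_el.1 hy
    refine Finset.mem_image.2 ⟨x, mem_el.2 ⟨mem_subgroupOf.1 hx, ?_⟩, ext'_mem ρ x.2⟩
    rw [← h2, orderOf_injective ρ hρ, Subgroup.orderOf_coe]
  exact (Finset.card_le_card h1).trans Finset.card_image_le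

end transfer

section five

variable {n : ℕ}

theorem card_five (hn : 10 ≤ n) (hn' : n < 15) (G : Subgroup (Perm (Fin n))) : (el G 5).card ≤
    n.factorial / ((n - 5).factorial * 5 ^ 1 * Nat.factorial 1) + n.factorial / ((n - 10).factorial * 5 ^ 2 * Nat.factorial 2) := by
  classical
  have hsub : el G 5 ⊆ (Finset.univ.filter fun g : Perm (Fin n) => g.cycleType = Multiset.replicate 1 5) ∪
      (Finset.univ.filter fun g : Perm (Fin n) => g.cycleType = Multiset.replicate 2 5) := by
    intro g hg
    obtain ⟨-, h3⟩ := mem_el.1 hg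
    obtain ⟨k, hk⟩ := cycleType_prime_order (σ := g) (by rw [h3]; norm_num)
    rw [h3] at hk
    have h4 : g.cycleType.sum ≤ n := by
      have := sum_cycleType_le g
      simpa using this
    rw [hk, Multiset.sum_replicate, smul_eq_mul] at h4
    simp only [Finset.mem_union, Finset.mem_filter, Finset.mem_univ, true_and]
    rw [hk]
    have h6 : k ≤ 1 := by omega
    interval_cases k <;> simp
  refine (Finset.card_le_card hsub).trans ?_
  refine (Finset.card_union_le _ _).trans ?_
  have hc : ∀ k, 1 ≤ k → 5 * k ≤ n → (Finset.univ.filter fun g : Perm (Fin n) => g.cycleType = Multiset.replicate k 5).card =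
      n.factorial / ((n - 5 * k).factorial * 5 ^ k * Nat.factorial k) := by
    intro k h1 h4
    rw [card_of_cycleType, if_pos]
    · rw [Multiset.sum_replicate, smul_eq_mul, Multiset.prod_replicate, Fintype.card_fin]
      have h5 : (Multiset.replicate k 5).toFinset = {5} := by
        rw [Multiset.toFinset_replicate, if_neg (by omega)]
      rw [h5, Finset.prod_singleton, Multiset.count_replicate_self, mul_comm k 5]
    · refine ⟨?_, ?_⟩
      · rw [Multiset.sum_replicate, smul_eq_mul, Fintype.card_fin]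
        omega
      · intro a ha
        rw [Multiset.eq_of_mem_replicate ha]
        norm_num
  rw [hc 1 (by norm_num) (by omega), hc 2 (by norm_num) (by omega)]

theorem card_five_eleven (G : Subgroup (Perm (Fin 11))) : (el G 5).card ≤ 809424 :=
  (card_five (by norm_num) (by norm_num) G).trans (by decide)

theorem card_five_twelve (G : Subgroup (Perm (Fin 12))) : (el G 5).card ≤ 4809024 :=
  (card_five (by norm_num) (by norm_num) G).trans (by decide)

end five

section rows

variable {G : Type*} [Group G] {H N : Subgroup G} {T : Type} [Group T] {e : N ≃* (Fin 1 → T)}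

theorem card_le_fact [Finite G] {n : ℕ} {ρ : H →* Perm (Fin n)} (hρ : Function.Injective ρ) : Nat.card H ≤ n.factorial := by
  have h1 := Nat.card_le_card_of_injective ρ hρ
  rwa [Nat.card_perm, Nat.card_eq_fintype_card (α := Fin n), Fintype.card_fin] at h1

theorem index_ge [Finite G] {m : ℕ} (h1 : Nat.card H ≤ m) (hG : 11 * m ≤ Nat.card G) : 11 ≤ H.index := by
  by_contra hcon
  have h2 := H.card_mul_index
  have h3 : Nat.card H * H.index ≤ m * 10 := Nat.mul_le_mul h1 (by omega)
  have h4 : 0 < Nat.card H := Nat.card_pos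
  omega

theorem four_le [Finite G] {K : Subgroup G} (h : 5 ∣ Nat.card K) : 4 ≤ (el K 5).card :=
  le_card_el K (by norm_num) h

theorem row_eleven [Finite G] (h : EPS H N e) (eT : T ≃* alternatingGroup (Fin 11))
    (hG : 11 * Nat.factorial 11 ≤ Nat.card G) {c5 : ℕ} (h5 : 182015200000 ≤ c5) (hc5 : ∀ x : G, orderOf x = 5 → c5 ≤ cG x) :
    False := by
  obtain ⟨ρ, hρ, halt, hmax⟩ := exists_frame h (by norm_num) eT
  have hidx := index_ge (card_le_fact hρ) hG
  refine dead_w hidx {5} (fun _ => 4) (fun _ _ => by norm_num) (fun g hg => ⟨5, Finset.mem_singleton_self 5, ?_⟩)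
    (fun _ => 809424) (fun _ => c5) ?_ (fun _ _ => by omega) ?_ ?_
  · exact (four_le (five_eleven halt (hmax g hg))).trans (el_map_le hρ 5)
  · intro r hr
    rw [Finset.mem_singleton] at hr
    subst hr
    exact (el_le_range hρ 5).trans (card_five_eleven _)
  · intro r hr x _ hx
    rw [Finset.mem_singleton] at hr
    subst hr
    exact hc5 x hx
  · rw [Finset.sum_singleton]
    have h1 : (182015200000 : ℚ) ≤ c5 := by exact_mod_cast h5
    rw [div_le_div_iff₀ (by push_cast; linarith) (by norm_num)]
    push_cast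
    linarith

theorem row_twelve [Finite G] (h : EPS H N e) (eT : T ≃* alternatingGroup (Fin 12))
    (hG : 11 * Nat.factorial 12 ≤ Nat.card G) {c3 c5 : ℕ} (h3 : 0 < c3) (h5 : 0 < c5)
    (hc3 : ∀ x : G, orderOf x = 3 → c3 ≤ cG x) (hc5 : ∀ x : G, orderOf x = 5 → c5 ≤ cG x)
    (hS : (75388445000 : ℚ) / c3 + 5781677958144 / c5 ≤ 9 / 10) : False := by
  obtain ⟨ρ, hρ, halt, hmax⟩ := exists_frame h (by norm_num) eT
  have hidx := index_ge (card_le_fact hρ) hG
  have hmem : ∀ r ∈ ({3, 5} : Finset ℕ), r = 3 ∨ r = 5 := by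
    intro r hr
    rw [Finset.mem_insert, Finset.mem_singleton] at hr
    exact hr
  refine dead_w hidx {3, 5} (fun r => if r = 3 then 8 else 4) (fun r _ => by split_ifs <;> norm_num) (fun g hg => ?_)
    (fun r => if r = 3 then 776600 else 4809024) (fun r => if r = 3 then c3 else c5) ?_
    (fun r _ => by split_ifs <;> assumption) ?_ ?_
  · by_cases ht : IsPretransitive (((H ⊓ cj g H).subgroupOf H).map ρ) (Fin 12)
    · refine ⟨3, by simp, ?_⟩
      simp only [if_true]
      exact (eight_twelve halt (hmax g hg) ht).trans (el_map_le hρ 3)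
    · refine ⟨5, by simp, ?_⟩
      simp only [show (5 : ℕ) ≠ 3 by norm_num, if_false]
      exact (four_le (five_of_orbit (by norm_num) halt (hmax g hg) ht)).trans (el_map_le hρ 5)
  · intro r hr
    rcases hmem r hr with rfl | rfl
    · simp only [if_true]
      exact (el_le_range hρ 3).trans (card_three_twelve _)
    · simp only [show (5 : ℕ) ≠ 3 by norm_num, if_false]
      exact (el_le_range hρ 5).trans (card_five_twelve _)
  · intro r hr x _ hx
    rcases hmem r hr with rfl | rfl
    · simp only [if_true]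
      exact hc3 x hx
    · simp only [show (5 : ℕ) ≠ 3 by norm_num, if_false]
      exact hc5 x hx
  · rw [Finset.sum_pair (by norm_num)]
    simp only [if_true, show (5 : ℕ) ≠ 3 by norm_num, if_false]
    have e1 : ((776600 : ℕ) : ℚ) ^ 2 / (((8 : ℕ) : ℚ) * c3) = 75388445000 / c3 := by
      have : (0 : ℚ) < c3 := by exact_mod_cast h3
      push_cast
      field_simp
      norm_num
    have e2 : ((4809024 : ℕ) : ℚ) ^ 2 / (((4 : ℕ) : ℚ) * c5) = 5781677958144 / c5 := by
      have : (0 : ℚ) < c5 := by exact_mod_cast h5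
      push_cast
      field_simp
      norm_num
    rw [e1, e2]
    exact hS

end rows

end Cfsg.Agent.H784.EX
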